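import Cfsg.Agent.Lib.OverLat.Core
import Cfsg.Prelude.Def_Solvable

/-!
# Exclusion of subgroups with non-trivial cores and explicit isomorphisms of permutation groups

* `Excl K`: no non-trivial normal 2-subgroup and no non-trivial normal subgroup of odd order;
* `not_excl_of_check`: an explicit normal subgroup certificate refutes `Excl`;
* `iso_of_diag`: a diagonal subgroup of `Perm (α ⊕ β)` of the right order gives an isomorphism.
-/

set_option autoImplicit false
set_option linter.unusedSectionVars false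

namespace Cfsg.Agent.Lib.OverLat.Basic

open Cfsg.Agent.Lib.PermComp.Core Cfsg.Agent.Lib.PermComp.Chain Cfsg.Agent.Lib.OverLat.Core Subgroup

/-! ### Valid codes -/

section Valid

variable {n w mask idc : Nat} {α : Type*} [Finite α] {e : α ≃ Fin n}

/-- A code of a permutation. -/
noncomputable def validC (n w mask idc c : Nat) : Bool :=
  ifB (allI (fun i => Nat.ble (Nat.succ (app w mask c i)) n) n) <|
  force (inv n w mask c) fun v => Nat.beq (comp n w mask v c) idc

theorem exists_rep_of_valid (hm : mask = 2 ^ w - 1) (hid : ∀ i < n, app w mask idc i = i) {c : Nat}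
    (h : validC n w mask idc c = true) : ∃ g : Equiv.Perm α, Rep w mask e c g := by
  simp only [validC, force_eq, ifB_eq_true] at h
  obtain ⟨h1, h2⟩ := h
  have hlt : ∀ i < n, app w mask c i < n := fun i hi =>
    Nat.le_of_ble_eq_true ((allI_eq_true _ _).mp h1 i hi)
  have hv := Nat.eq_of_beq_eq_true h2
  let f : α → α := fun a => e.symm ⟨app w mask c (e a), hlt _ (e a).2⟩
  have hinj : Function.Injective f := by
    intro a b hab
    have h1 : app w mask c (e a) = app w mask c (e b) := by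
      have := congrArg (fun x => ((e x : Fin n) : ℕ)) hab
      simpa [f] using this
    have h2 := app_comp hm n (inv n w mask c) c (e a) (e a).2
    have h3 := app_comp hm n (inv n w mask c) c (e b) (e b).2
    rw [hv, hid _ (e a).2] at h2
    rw [hv, hid _ (e b).2] at h3
    rw [h1, ← h3] at h2
    exact e.injective (Fin.ext h2)
  refine ⟨Equiv.ofBijective f (Finite.injective_iff_bijective.mp hinj), fun a => ?_⟩
  simp [f]

end Valid

/-! ### Core conditions -/

/-- No non-trivial normal 2-subgroup and no non-trivial normal subgroup of odd order. -/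
def Excl (K : Type*) [Group K] : Prop :=
  (∀ N : Subgroup K, N.Normal → IsPGroup 2 N → N = ⊥) ∧
    (∀ N : Subgroup K, N.Normal → (Nat.card N).Coprime 2 → N = ⊥)

theorem excl_of_cores {K : Type*} [Group K] (h1 : Cfsg.pCore 2 K = ⊥) (h2 : Cfsg.pPrimeCore 2 K = ⊥) : Excl K := by
  constructor
  · intro N hN hp
    rw [eq_bot_iff, ← h1]
    exact le_sSup ⟨hN, hp⟩
  · intro N hN hp
    rw [eq_bot_iff, ← h2]
    exact le_sSup ⟨hN, hp⟩

theorem Excl.of_equiv {K K' : Type*} [Group K] [Group K'] (f : K ≃* K') (h : Excl K) : Excl K' := by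
  have key : ∀ N : Subgroup K', N.comap f.toMonoidHom = ⊥ → N = ⊥ := by
    intro N hN
    rw [eq_bot_iff]
    intro x hx
    have h1 : f.symm x ∈ N.comap f.toMonoidHom := by
      simpa [Subgroup.mem_comap] using hx
    rw [hN, Subgroup.mem_bot] at h1
    have h2 : x = f (f.symm x) := by simp
    rw [h2, h1, map_one]
    exact one_mem _
  have hcard : ∀ N : Subgroup K', Nat.card (N.comap f.toMonoidHom) = Nat.card N := by
    intro N
    apply Nat.card_congr
    exact { toFun := fun x => ⟨f x.1, x.2⟩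
            invFun := fun y => ⟨f.symm y.1, by simp [Subgroup.mem_comap]⟩
            left_inv := fun x => Subtype.ext (by simp)
            right_inv := fun y => Subtype.ext (by simp) }
  constructor
  · intro N hN hp
    apply key
    apply h.1 _ (hN.comap _)
    rintro ⟨x, hx⟩
    obtain ⟨k, hk⟩ := hp ⟨f x, hx⟩
    refine ⟨k, Subtype.ext (f.injective ?_)⟩
    have h3 : f x ^ 2 ^ k = 1 := by simpa using congrArg Subtype.val hk
    show f (x ^ 2 ^ k) = f 1
    rw [map_pow, map_one, h3]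
  · intro N hN hp
    apply key
    apply h.2 _ (hN.comap _)
    rw [hcard]
    exact hp

section Normal

variable {n w mask L maskL idc : Nat} {α : Type*} [Finite α] {e : α ≃ Fin n}

/-- `NT` generates a subgroup of `H T` normalized by the generators in `T`. -/
noncomputable def normCheck (n w mask L maskL idc : Nat) (lsL lsN : List Lev) (T NT : List Nat) : Bool :=
  ifB (allL (sift n w mask L maskL idc lsL) NT) <|
  allL (fun s =>
    force (inv n w mask s) fun v =>
    ifB (Nat.beq (comp n w mask v s) idc) <|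
    allL (fun t =>
      force (comp n w mask s t) fun x =>
      force (comp n w mask x v) (sift n w mask L maskL idc lsN)) NT) T

theorem normal_of_check (hm : mask = 2 ^ w - 1) (hid : ∀ i < n, app w mask idc i = i) {lsL lsN : List Lev} {T NT : List Nat}
    (hsemL : Sem w mask e L maskL lsL) (hsemN : Sem w mask e L maskL lsN)
    (hTL : H w mask e T = H w mask e (topGens lsL)) (hTN : H w mask e NT = H w mask e (topGens lsN))
    (hc : normCheck n w mask L maskL idc lsL lsN T NT = true) :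
    H w mask e NT ≤ H w mask e T ∧ H w mask e T ≤ normalizer (H w mask e NT : Set (Equiv.Perm α)) := by
  simp only [normCheck, ifB_eq_true] at hc
  obtain ⟨h1, h2⟩ := hc
  constructor
  · rw [hTL]
    apply (Subgroup.closure_le _).2
    rintro g ⟨c, hc, hg⟩
    exact sift_sound_of_sem hm hid lsL hsemL c g hg ((allL_eq_true _ _).mp h1 c hc)
  · apply (Subgroup.closure_le _).2
    rintro s ⟨c, hc, hs⟩
    have h3 := (allL_eq_true _ _).mp h2 c hc
    simp only [force_eq, ifB_eq_true] at h3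
    obtain ⟨h4, h5⟩ := h3
    have hv := Nat.eq_of_beq_eq_true h4
    have hinv := hs.inv hm hid hv
    -- conjugation maps `N` into `N`
    have hle : (H w mask e NT).map (MulAut.conj s).toMonoidHom ≤ H w mask e NT := by
      rw [Subgroup.map_le_iff_le_comap]
      apply (Subgroup.closure_le _).2
      rintro t ⟨d, hd, ht⟩
      have h6 := (allL_eq_true _ _).mp h5 d hd
      have h7 := sift_sound_of_sem hm hid lsN hsemN _ _ ((hs.comp hm ht).comp hm hinv) h6
      rw [← hTN] at h7
      exact h7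
    have hcard : Nat.card ((H w mask e NT).map (MulAut.conj s).toMonoidHom) = Nat.card (H w mask e NT) := by
      apply Nat.card_congr
      exact ((H w mask e NT).equivMapOfInjective _ (MulAut.conj s).injective).toEquiv.symm
    have heq := Subgroup.eq_of_le_of_card_ge hle hcard.ge
    show s ∈ normalizer _
    rw [mem_normalizer_iff]
    intro h
    have h8 : h ∈ H w mask e NT ↔ s * h * s⁻¹ ∈ (H w mask e NT).map (MulAut.conj s).toMonoidHom := by
      constructor
      · intro hh
        exact ⟨h, hh, rfl⟩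
      · rintro ⟨x, hx, hxh⟩
        have : x = h := by
          have h9 : s * x * s⁻¹ = s * h * s⁻¹ := hxh
          simpa using h9
        rwa [← this]
    rw [h8, heq]

theorem not_excl_of_check (hm : mask = 2 ^ w - 1) (hid : ∀ i < n, app w mask idc i = i) {lsL lsN : List Lev} {T NT : List Nat}
    (hsemL : Sem w mask e L maskL lsL) (hsemN : Sem w mask e L maskL lsN)
    (hTL : H w mask e T = H w mask e (topGens lsL)) (hTN : H w mask e NT = H w mask e (topGens lsN))
    (hc : normCheck n w mask L maskL idc lsL lsN T NT = true)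
    (hcard : Nat.card (H w mask e NT) ≠ 1)
    (hord : (∃ k, Nat.card (H w mask e NT) = 2 ^ k) ∨ (Nat.card (H w mask e NT)).Coprime 2) :
    ¬ Excl (H w mask e T) := by
  obtain ⟨hle, hnorm⟩ := normal_of_check hm hid hsemL hsemN hTL hTN hc
  intro hE
  let N' : Subgroup (H w mask e T) := (H w mask e NT).subgroupOf (H w mask e T)
  have hN' : N'.Normal := (normal_subgroupOf_iff_le_normalizer hle).mpr hnorm
  have hcN : Nat.card N' = Nat.card (H w mask e NT) :=
    Nat.card_congr (Subgroup.subgroupOfEquivOfLe hle).toEquiv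
  have hbot : N' = ⊥ := by
    rcases hord with ⟨k, hk⟩ | hk
    · exact hE.1 N' hN' (IsPGroup.of_card (n := k) (by rw [hcN, hk]))
    · exact hE.2 N' hN' (by rw [hcN]; exact hk)
  apply hcard
  rw [← hcN, hbot]
  simp

end Normal

/-! ### Isomorphisms from diagonal subgroups -/

section Diag

/-- Generic: a subgroup of a product with the right order is the graph of an isomorphism. -/
theorem iso_of_graph {A B : Type*} [Group A] [Group B] [Finite A] [Finite B] (K : Subgroup (A × B))
    (h1 : Nat.card K = Nat.card (K.map (MonoidHom.fst A B))) (h2 : Nat.card K = Nat.card (K.map (MonoidHom.snd A B))) :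
    Nonempty ((K.map (MonoidHom.fst A B)) ≃* (K.map (MonoidHom.snd A B))) := by
  let f1 : K →* K.map (MonoidHom.fst A B) := (MonoidHom.fst A B).subgroupMap K
  let f2 : K →* K.map (MonoidHom.snd A B) := (MonoidHom.snd A B).subgroupMap K
  have hs1 : Function.Surjective f1 := (MonoidHom.fst A B).subgroupMap_surjective K
  have hs2 : Function.Surjective f2 := (MonoidHom.snd A B).subgroupMap_surjective K
  have hb1 : Function.Bijective f1 := (Nat.bijective_iff_surjective_and_card f1).mpr ⟨hs1, h1⟩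
  have hb2 : Function.Bijective f2 := (Nat.bijective_iff_surjective_and_card f2).mpr ⟨hs2, h2⟩
  exact ⟨(MulEquiv.ofBijective f1 hb1).symm.trans (MulEquiv.ofBijective f2 hb2)⟩

variable {n₁ w₁ m₁ : Nat} {α : Type*} [Finite α] {e₁ : α ≃ Fin n₁}
  {n₂ w₂ m₂ : Nat} {β : Type*} [Finite β] {e₂ : β ≃ Fin n₂}
  {n w m : Nat} {e : (α ⊕ β) ≃ Fin n}

/-- The triples are compatible. -/
def Compat (w₁ m₁ : Nat) (e₁ : α ≃ Fin n₁) (w₂ m₂ : Nat) (e₂ : β ≃ Fin n₂) (w m : Nat) (e : (α ⊕ β) ≃ Fin n)
    (Ds : List (Nat × Nat × Nat)) : Prop :=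
  ∀ r ∈ Ds, (∃ g : Equiv.Perm α, Rep w₁ m₁ e₁ r.1 g) ∧ (∃ g : Equiv.Perm β, Rep w₂ m₂ e₂ r.2.1 g) ∧
    ∀ (g : Equiv.Perm α) (g' : Equiv.Perm β), Rep w₁ m₁ e₁ r.1 g → Rep w₂ m₂ e₂ r.2.1 g' →
      Rep w m e r.2.2 (Equiv.Perm.sumCongr g g')

/-- The graph subgroup. -/
def graphK (w₁ m₁ : Nat) (e₁ : α ≃ Fin n₁) (w₂ m₂ : Nat) (e₂ : β ≃ Fin n₂) (Ds : List (Nat × Nat × Nat)) :
    Subgroup (Equiv.Perm α × Equiv.Perm β) :=
  closure {x | ∃ r ∈ Ds, Rep w₁ m₁ e₁ r.1 x.1 ∧ Rep w₂ m₂ e₂ r.2.1 x.2}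

theorem iso_of_diag {Ds : List (Nat × Nat × Nat)} (hD : Compat w₁ m₁ e₁ w₂ m₂ e₂ w m e Ds)
    (hn : Nat.card (H w m e (Ds.map (·.2.2))) = Nat.card (H w₁ m₁ e₁ (Ds.map (·.1))))
    (hn' : Nat.card (H w m e (Ds.map (·.2.2))) = Nat.card (H w₂ m₂ e₂ (Ds.map (·.2.1)))) :
    Nonempty (H w₁ m₁ e₁ (Ds.map (·.1)) ≃* H w₂ m₂ e₂ (Ds.map (·.2.1))) := by
  set K := graphK w₁ m₁ e₁ w₂ m₂ e₂ Ds with hK
  have h1 : K.map (MonoidHom.fst _ _) = H w₁ m₁ e₁ (Ds.map (·.1)) := by
    rw [hK, graphK, MonoidHom.map_closure, H]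
    congr 1
    ext g
    constructor
    · rintro ⟨x, ⟨r, hr, h1, -⟩, rfl⟩
      exact ⟨r.1, List.mem_map.mpr ⟨r, hr, rfl⟩, h1⟩
    · rintro ⟨c, hc, hg⟩
      obtain ⟨r, hr, rfl⟩ := List.mem_map.mp hc
      obtain ⟨-, ⟨g', hg'⟩, -⟩ := hD r hr
      exact ⟨(g, g'), ⟨r, hr, hg, hg'⟩, rfl⟩
  have h2 : K.map (MonoidHom.snd _ _) = H w₂ m₂ e₂ (Ds.map (·.2.1)) := by
    rw [hK, graphK, MonoidHom.map_closure, H]
    congr 1
    ext g
    constructor
    · rintro ⟨x, ⟨r, hr, -, h1⟩, rfl⟩
      exact ⟨r.2.1, List.mem_map.mpr ⟨r, hr, rfl⟩, h1⟩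
    · rintro ⟨c, hc, hg⟩
      obtain ⟨r, hr, rfl⟩ := List.mem_map.mp hc
      obtain ⟨⟨g', hg'⟩, -, -⟩ := hD r hr
      exact ⟨(g', g), ⟨r, hr, hg', hg⟩, rfl⟩
  have h3 : K.map (Equiv.Perm.sumCongrHom α β) = H w m e (Ds.map (·.2.2)) := by
    rw [hK, graphK, MonoidHom.map_closure, H]
    congr 1
    ext g
    constructor
    · rintro ⟨x, ⟨r, hr, h1, h2⟩, rfl⟩
      exact ⟨r.2.2, List.mem_map.mpr ⟨r, hr, rfl⟩, (hD r hr).2.2 _ _ h1 h2⟩
    · rintro ⟨c, hc, hg⟩
      obtain ⟨r, hr, rfl⟩ := List.mem_map.mp hc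
      obtain ⟨⟨g1, hg1⟩, ⟨g2, hg2⟩, h⟩ := hD r hr
      have := (h g1 g2 hg1 hg2).unique hg
      exact ⟨(g1, g2), ⟨r, hr, hg1, hg2⟩, this⟩
  have hinj : Function.Injective (Equiv.Perm.sumCongrHom α β) := Equiv.Perm.sumCongrHom_injective
  have h4 : Nat.card K = Nat.card (H w m e (Ds.map (·.2.2))) := by
    rw [← h3]
    exact Nat.card_congr (K.equivMapOfInjective _ hinj).toEquiv
  have h5 : Nat.card K = Nat.card (K.map (MonoidHom.fst (Equiv.Perm α) (Equiv.Perm β))) := by
    rw [h4, h1, hn]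
  have h6 : Nat.card K = Nat.card (K.map (MonoidHom.snd (Equiv.Perm α) (Equiv.Perm β))) := by
    rw [h4, h2, hn']
  obtain ⟨f⟩ := iso_of_graph K h5 h6
  exact ⟨(MulEquiv.subgroupCongr h1.symm).trans (f.trans (MulEquiv.subgroupCongr h2))⟩

end Diag

end Cfsg.Agent.Lib.OverLat.Basic
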