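import Cfsg.Agent.Lib.PermComp.Chain

/-!
# Kernel certificates for overgroup lattices

For a permutation group `L = H T` inside an ambient group `H gA` a certificate lists left coset
representatives of `L`, the action of the generators on them, a spanning forest of the `L`-orbits
on the cosets and for each root a straight line program showing that `L` together with the root
generates a group containing one of finitely many target groups.

`step`: every `X` with `L ≤ X ≤ H gA` is `L` or contains one of the targets.
-/

set_option autoImplicit false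
set_option linter.unusedSectionVars false

namespace Cfsg.Agent.Lib.OverLat.Core

open Cfsg.Agent.Lib.PermComp.Core Cfsg.Agent.Lib.PermComp.Chain Subgroup

/-- Kernel friendly bounded for-all (`f (k-1), ..., f 0`). -/
noncomputable def allI (f : Nat → Bool) (k : Nat) : Bool :=
  Nat.rec true (fun i ih => Bool.rec false ih (f i)) k

theorem allI_eq_true (f : Nat → Bool) (k : Nat) : allI f k = true ↔ ∀ i < k, f i = true := by
  induction k with
  | zero => simp [allI]
  | succ k ih =>
    have h : allI f (k + 1) = Bool.rec false (allI f k) (f k) := rfl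
    rw [h]
    cases hf : f k with
    | false =>
      simp only [Bool.false_eq_true, false_iff]
      intro hall
      have := hall k (Nat.lt_succ_self k)
      rw [hf] at this
      exact absurd this (by simp)
    | true =>
      show allI f k = true ↔ _
      rw [ih]
      constructor
      · intro hall i hi
        rcases Nat.lt_succ_iff_lt_or_eq.mp hi with h1 | rfl
        · exact hall i h1
        · exact hf
      · intro hall i hi
        exact hall i (Nat.lt_succ_of_lt hi)

/-- Kernel friendly lookup in a list of pairs. -/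
noncomputable def nthP (T : List (Nat × Nat)) : Nat → Nat × Nat :=
  List.rec (motive := fun _ => Nat → Nat × Nat) (fun _ => (0, 0))
    (fun a _ ih j => Nat.rec a (fun j' _ => ih j') j) T

theorem nthP_mem (T : List (Nat × Nat)) : ∀ j, j < T.length → nthP T j ∈ T := by
  induction T with
  | nil => intro j hj; simp at hj
  | cons a T ih =>
    intro j hj
    cases j with
    | zero => exact List.mem_cons_self
    | succ j =>
      have : nthP (a :: T) (j + 1) = nthP T j := rfl
      rw [this]
      exact List.mem_cons_of_mem _ (ih j (by simpa using hj))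

/-- Kernel friendly lookup in a list of lists. -/
noncomputable def nthL (T : List (List Nat)) : Nat → List Nat :=
  List.rec (motive := fun _ => Nat → List Nat) (fun _ => [])
    (fun a _ ih j => Nat.rec a (fun j' _ => ih j') j) T

theorem nthL_mem (T : List (List Nat)) : ∀ j, j < T.length → nthL T j ∈ T := by
  induction T with
  | nil => intro j hj; simp at hj
  | cons a T ih =>
    intro j hj
    cases j with
    | zero => exact List.mem_cons_self
    | succ j =>
      have : nthL (a :: T) (j + 1) = nthL T j := rfl
      rw [this]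
      exact List.mem_cons_of_mem _ (ih j (by simpa using hj))

/-- Kernel friendly length. -/
noncomputable def lenN {β : Type} (T : List β) : Nat :=
  List.rec 0 (fun _ _ ih => Nat.succ ih) T

theorem lenN_eq {β : Type} (T : List β) : lenN T = T.length := by
  induction T with
  | nil => rfl
  | cons a T ih =>
    show Nat.succ (lenN T) = _
    rw [ih]
    rfl

/-- The data of a step. -/
structure StepCert where
  /-- number of cosets -/
  N : Nat
  /-- width of the index tables -/
  b : Nat
  /-- mask of the index tables -/
  bm : Nat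
  /-- packed coset representatives -/
  U : Nat
  /-- packed inverses of the coset representatives -/
  V : Nat
  /-- ambient generators with the tables of their action on the cosets -/
  tabsA : List (Nat × Nat)
  /-- generators of the group with the tables of their action on the cosets -/
  tabsL : List (Nat × Nat)
  /-- packed table of the roots -/
  rt : Nat
  /-- packed table of the parents -/
  par : Nat
  /-- packed table of the generator indices -/
  gi : Nat
  /-- the bit mask of the roots -/
  rootMask : Nat
  /-- root, index of the target, words for the generators of the target -/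
  roots : List (Nat × Nat × List Nat)

section Check

variable (n w mask L maskL idc : Nat) (ls : List Lev)

/-- `s * U i` lies in the coset of `U (tab i)`. -/
noncomputable def cosOne (N b bm U V s tab i : Nat) : Bool :=
  force (app b bm tab i) fun j =>
    ifB (Nat.ble (Nat.succ j) N) <|
    force (app L maskL U i) fun ui =>
    force (comp n w mask s ui) fun x =>
    force (app L maskL V j) fun vj =>
    force (comp n w mask vj x) (sift n w mask L maskL idc ls)

/-- The coset table of one generator. -/
noncomputable def cosAll (N b bm U V : Nat) (p : Nat × Nat) : Bool :=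
  allI (cosOne n w mask L maskL idc ls N b bm U V p.1 p.2) N

/-- The inverse table. -/
noncomputable def invOne (U V i : Nat) : Bool :=
  force (app L maskL U i) fun ui =>
  force (app L maskL V i) fun vi =>
  Nat.beq (comp n w mask vi ui) idc

/-- The forest of the `L`-orbits on the cosets. -/
noncomputable def rootOK (C : StepCert) (i : Nat) : Bool :=
  Bool.rec
    (force (app C.b C.bm C.rt i) fun ρ =>
      ifB (bit C.rootMask ρ) <|
      ifB (Nat.ble (Nat.succ 0) ρ) <|
      Bool.rec
        (force (app C.b C.bm C.par i) fun p =>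
          ifB (Nat.ble (Nat.succ p) i) <|
          ifB (Nat.beq (app C.b C.bm C.rt p) ρ) <|
          force (app C.b C.bm C.gi i) fun k =>
          ifB (Nat.ble (Nat.succ k) (lenN C.tabsL)) <|
          Nat.beq (app C.b C.bm (nthP C.tabsL k).2 p) i)
        true
        (Nat.beq ρ i))
    true
    (Nat.beq i 0)

/-- Lookup with default `idc`. -/
noncomputable def nthI (idc : Nat) (T : List Nat) : Nat → Nat :=
  List.rec (motive := fun _ => Nat → Nat) (fun _ => idc)
    (fun a _ ih j => Nat.rec a (fun j' _ => ih j') j) T

/-- Evaluate a word: the digits (base 8, non-zero) are the letters, the first letter is applied first. -/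
noncomputable def runWord (vals : List Nat) (fuel : Nat) : Nat → Nat → Nat :=
  Nat.rec (motive := fun _ => Nat → Nat → Nat) (fun _ acc => acc)
    (fun _ ih word acc =>
      Bool.rec
        (force (nthI idc vals (Nat.sub (Nat.land word 7) 1)) fun g =>
         force (comp n w mask g acc) fun acc' =>
         force (Nat.shiftRight word 3) fun word' => ih word' acc')
        acc
        (Nat.beq word 0))
    fuel

/-- All the generators are the values of the words. -/
noncomputable def wordsOK (vals : List Nat) : List Nat → List Nat → Bool :=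
  fun gens =>
  List.rec (motive := fun _ => List Nat → Bool) (fun _ => true)
    (fun c _ ih ws =>
      List.rec (motive := fun _ => Bool) false
        (fun u us _ => ifB (Nat.beq (runWord n w mask idc vals 64 u idc) c) (ih us)) ws)
    gens

/-- The certificates at the roots. -/
noncomputable def rootsOK (targets : List (List Nat)) (T : List Nat) (U : Nat) :
    List (Nat × Nat × List Nat) → Nat → Bool :=
  fun rs =>
  List.rec (motive := fun _ => Nat → Bool)
    (fun _ => true)
    (fun r _ ih mem =>
      ifB (Nat.ble (Nat.succ r.2.1) (lenN targets)) <|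
      force (app L maskL U r.1) fun u =>
      ifB (wordsOK n w mask idc (u :: T) (nthL targets r.2.1) r.2.2) <|
      force (setBit mem r.1) ih)
    rs

/-- The final mask of `rootsOK`. -/
noncomputable def rootsMem : List (Nat × Nat × List Nat) → Nat → Nat :=
  fun rs =>
  List.rec (motive := fun _ => Nat → Nat)
    (fun m => m) (fun r _ ih mem => force (setBit mem r.1) ih) rs

/-- The check of a step. -/
noncomputable def stepCheck (targets : List (List Nat)) (T : List Nat) (C : StepCert) : Bool :=
  ifB (Nat.ble (Nat.succ 0) C.N) <|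
  ifB (Nat.beq (app L maskL C.U 0) idc) <|
  ifB (allI (invOne n w mask L maskL idc C.U C.V) C.N) <|
  ifB (allL (cosAll n w mask L maskL idc ls C.N C.b C.bm C.U C.V) C.tabsA) <|
  ifB (allL (cosAll n w mask L maskL idc ls C.N C.b C.bm C.U C.V) C.tabsL) <|
  ifB (allL (fun p => memN p.1 T) C.tabsL) <|
  ifB (allI (rootOK C) C.N) <|
  ifB (Nat.beq (app C.b C.bm C.rt 0) 0) <|
  ifB (rootsOK n w mask L maskL idc targets T C.U C.roots 0) <|
  Nat.beq (rootsMem C.roots 0) C.rootMask

end Check

section Sound

variable {n w mask L maskL idc : Nat} {ls : List Lev} {α : Type*} [Finite α] {e : α ≃ Fin n}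

theorem rootsMem_bit (rs : List (Nat × Nat × List Nat)) :
    ∀ (m x : Nat), bit (rootsMem rs m) x = true ↔ bit m x = true ∨ x ∈ rs.map (·.1) := by
  induction rs with
  | nil => intro m x; simp [rootsMem]
  | cons r rs ih =>
    intro m x
    have h1 : rootsMem (r :: rs) m = rootsMem rs (setBit m r.1) := by
      show force _ _ = _
      rw [force_eq]
      rfl
    rw [h1, ih, bit_setBit]
    simp only [List.map_cons, List.mem_cons]
    tauto

theorem exists_rep_of_comp (hn : n = 2 ^ w) (hm : mask = 2 ^ w - 1) (hid : ∀ i < n, app w mask idc i = i)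
    {c v : Nat} (h : comp n w mask v c = idc) : ∃ g : Equiv.Perm α, Rep w mask e c g := by
  have hlt : ∀ i, app w mask c i < n := fun i => by rw [hn]; exact app_lt hm _ _
  let f : α → α := fun a => e.symm ⟨app w mask c (e a), hlt _⟩
  have hinj : Function.Injective f := by
    intro a b hab
    have h1 : app w mask c (e a) = app w mask c (e b) := by
      have := congrArg (fun x => ((e x : Fin n) : ℕ)) hab
      simpa [f] using this
    have h2 := app_comp hm n v c (e a) (e a).2
    have h3 := app_comp hm n v c (e b) (e b).2
    rw [h, hid _ (e a).2] at h2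
    rw [h, hid _ (e b).2] at h3
    rw [h1, ← h3] at h2
    exact e.injective (Fin.ext h2)
  refine ⟨Equiv.ofBijective f (Finite.injective_iff_bijective.mp hinj), fun a => ?_⟩
  simp [f]

theorem invOne_spec {U V i : Nat} (h : invOne n w mask L maskL idc U V i = true) :
    comp n w mask (app L maskL V i) (app L maskL U i) = idc := by
  simp only [invOne, force_eq] at h
  exact Nat.eq_of_beq_eq_true h

theorem cosOne_spec (hm : mask = 2 ^ w - 1) (hid : ∀ i < n, app w mask idc i = i) (hsem : Sem w mask e L maskL ls)
    {N b bm U V s tab i : Nat} (h : cosOne n w mask L maskL idc ls N b bm U V s tab i = true)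
    {gs g : Equiv.Perm α} (hs : Rep w mask e s gs) (hg : Rep w mask e (app L maskL U i) g)
    (hinv : comp n w mask (app L maskL V (app b bm tab i)) (app L maskL U (app b bm tab i)) = idc)
    (hj : ∃ gj : Equiv.Perm α, Rep w mask e (app L maskL U (app b bm tab i)) gj) :
    app b bm tab i < N ∧ ∃ gj : Equiv.Perm α, Rep w mask e (app L maskL U (app b bm tab i)) gj ∧
      gj⁻¹ * (gs * g) ∈ H w mask e (topGens ls) := by
  simp only [cosOne, force_eq, ifB_eq_true] at h
  obtain ⟨h1, h2⟩ := h
  refine ⟨Nat.le_of_ble_eq_true h1, ?_⟩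
  obtain ⟨gj, hgj⟩ := hj
  refine ⟨gj, hgj, ?_⟩
  exact sift_sound_of_sem hm hid ls hsem _ _ ((hgj.inv hm hid hinv).comp hm (hs.comp hm hg)) h2

/-- Every ambient element is in one of the cosets. -/
theorem cover (hn : n = 2 ^ w) (hm : mask = 2 ^ w - 1) (hid : ∀ i < n, app w mask idc i = i) (hsem : Sem w mask e L maskL ls)
    (C : StepCert) (hN : 0 < C.N) (h0 : app L maskL C.U 0 = idc)
    (hinv : ∀ i < C.N, invOne n w mask L maskL idc C.U C.V i = true)
    (hcos : ∀ p ∈ C.tabsA, cosAll n w mask L maskL idc ls C.N C.b C.bm C.U C.V p = true)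
    {h : Equiv.Perm α} (hh : h ∈ H w mask e (C.tabsA.map (·.1))) :
    ∃ i < C.N, ∃ g : Equiv.Perm α, Rep w mask e (app L maskL C.U i) g ∧ g⁻¹ * h ∈ H w mask e (topGens ls) := by
  refine closure_induction_left_finite
    (P := fun h => ∃ i < C.N, ∃ g : Equiv.Perm α, Rep w mask e (app L maskL C.U i) g ∧
      g⁻¹ * h ∈ H w mask e (topGens ls)) ?_ ?_ hh
  · refine ⟨0, hN, 1, ?_, by simp [one_mem]⟩
    rw [h0]
    exact rep_one hid
  · rintro s ⟨c, hc, hs⟩ h ⟨i, hi, g, hg, hmem⟩
    obtain ⟨p, hp, rfl⟩ := List.mem_map.mp hc
    have h1 := (allI_eq_true _ _).mp (hcos p hp) i hi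
    set j := app C.b C.bm p.2 i with hj_def
    have hjN : j < C.N := by
      have h2 : cosOne n w mask L maskL idc ls C.N C.b C.bm C.U C.V p.1 p.2 i = true := h1
      simp only [cosOne, force_eq, ifB_eq_true] at h2
      exact Nat.le_of_ble_eq_true h2.1
    have hinvj := invOne_spec (hinv j hjN)
    obtain ⟨h3, gj, hgj, h4⟩ := cosOne_spec hm hid hsem h1 hs hg hinvj (exists_rep_of_comp hn hm hid hinvj)
    refine ⟨j, h3, gj, hgj, ?_⟩
    have h5 : gj⁻¹ * (s * h) = (gj⁻¹ * (s * g)) * (g⁻¹ * h) := by group
    rw [h5]
    exact mul_mem h4 hmem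

/-- The forest step. -/
theorem tree_step (hn : n = 2 ^ w) (hm : mask = 2 ^ w - 1) (hid : ∀ i < n, app w mask idc i = i) (hsem : Sem w mask e L maskL ls)
    (C : StepCert) {T : List Nat}
    (hT : ∀ c ∈ T, ∃ g : Equiv.Perm α, Rep w mask e c g)
    (hinv : ∀ i < C.N, invOne n w mask L maskL idc C.U C.V i = true)
    (hcos : ∀ p ∈ C.tabsL, cosAll n w mask L maskL idc ls C.N C.b C.bm C.U C.V p = true)
    (hgL : ∀ p ∈ C.tabsL, memN p.1 T = true)
    (hroot : ∀ i < C.N, rootOK C i = true) (hrt0 : app C.b C.bm C.rt 0 = 0)
    (X : Subgroup (Equiv.Perm α)) (h1 : H w mask e T ≤ X) (h2 : H w mask e (topGens ls) ≤ X) :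
    ∀ i, i < C.N → i ≠ 0 → (∃ g : Equiv.Perm α, Rep w mask e (app L maskL C.U i) g ∧ g ∈ X) →
      bit C.rootMask (app C.b C.bm C.rt i) = true ∧ app C.b C.bm C.rt i ≠ 0 ∧
      ∃ g : Equiv.Perm α, Rep w mask e (app L maskL C.U (app C.b C.bm C.rt i)) g ∧ g ∈ X := by
  intro i
  induction i using Nat.strong_induction_on with
  | _ i ih =>
    intro hi hi0 hR
    have hr := hroot i hi
    have hb : Nat.beq i 0 = false := by
      cases hb : Nat.beq i 0 with
      | false => rfl
      | true => exact absurd (Nat.eq_of_beq_eq_true hb) hi0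
    simp only [rootOK, hb, force_eq, ifB_eq_true] at hr
    obtain ⟨h3, h4, h5⟩ := hr
    have h4' : app C.b C.bm C.rt i ≠ 0 := by
      have := Nat.le_of_ble_eq_true h4
      omega
    cases hb2 : Nat.beq (app C.b C.bm C.rt i) i with
    | true =>
      have h6 := Nat.eq_of_beq_eq_true hb2
      refine ⟨h3, h4', ?_⟩
      rw [h6]
      exact hR
    | false =>
      rw [hb2] at h5
      simp only [ifB_eq_true] at h5
      obtain ⟨h6, h7, h8, h9⟩ := h5
      have hp : app C.b C.bm C.par i < i := Nat.le_of_ble_eq_true h6
      have hrt : app C.b C.bm C.rt (app C.b C.bm C.par i) = app C.b C.bm C.rt i := Nat.eq_of_beq_eq_true h7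
      have hk : app C.b C.bm C.gi i < C.tabsL.length := by
        have := Nat.le_of_ble_eq_true h8
        rw [lenN_eq] at this
        exact this
      have htab := Nat.eq_of_beq_eq_true h9
      set k := app C.b C.bm C.gi i with hk_def
      set pp := app C.b C.bm C.par i with hpp_def
      have hmemk := nthP_mem C.tabsL k hk
      set q := nthP C.tabsL k with hq_def
      obtain ⟨g, hg, hgX⟩ := hR
      have hpN : pp < C.N := lt_trans hp hi
      have hinvp := invOne_spec (hinv pp hpN)
      obtain ⟨gp, hgp⟩ : ∃ gp : Equiv.Perm α, Rep w mask e (app L maskL C.U pp) gp :=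
        exists_rep_of_comp hn hm hid hinvp
      have hqT : q.1 ∈ T := (memN_eq_true _ _).mp (hgL q hmemk)
      obtain ⟨gq, hgq⟩ := hT q.1 hqT
      have hcos1 := (allI_eq_true _ _).mp (hcos q hmemk) pp hpN
      have hinvj := invOne_spec (hinv i hi)
      have hspec := cosOne_spec hm hid hsem hcos1 hgq hgp (by rw [htab]; exact hinvj)
        (by rw [htab]; exact ⟨g, hg⟩)
      rw [htab] at hspec
      obtain ⟨-, gj, hgj, hmem⟩ := hspec
      have hgj' : gj = g := hgj.unique hg
      subst hgj'
      have hgpX : gp ∈ X := by
        have h10 : gp = gq⁻¹ * (gj * (gj⁻¹ * (gq * gp))) := by group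
        rw [h10]
        exact mul_mem (inv_mem (h1 (H_of_rep hqT hgq))) (mul_mem hgX (h2 hmem))
      by_cases hp0 : pp = 0
      · exfalso
        rw [hp0, hrt0] at hrt
        exact h4' hrt.symm
      · have := ih pp hp hpN hp0 ⟨gp, hgp, hgpX⟩
        rw [hrt] at this
        exact this

theorem nthI_mem (T : List Nat) : ∀ j, nthI idc T j = idc ∨ nthI idc T j ∈ T := by
  induction T with
  | nil => intro j; exact Or.inl rfl
  | cons a T ih =>
    intro j
    cases j with
    | zero => exact Or.inr List.mem_cons_self
    | succ j =>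
      have : nthI idc (a :: T) (j + 1) = nthI idc T j := rfl
      rw [this]
      rcases ih j with h | h
      · exact Or.inl h
      · exact Or.inr (List.mem_cons_of_mem _ h)

theorem runWord_sound (hm : mask = 2 ^ w - 1) (hid : ∀ i < n, app w mask idc i = i) {vals : List Nat}
    (X : Subgroup (Equiv.Perm α)) (hv : ∀ c ∈ vals, ∃ g ∈ X, Rep w mask e c g) :
    ∀ (fuel word acc : Nat), (∃ g ∈ X, Rep w mask e acc g) →
      ∃ g ∈ X, Rep w mask e (runWord n w mask idc vals fuel word acc) g := by
  intro fuel
  induction fuel with
  | zero => intro word acc h; exact h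
  | succ fuel ih =>
    intro word acc h
    have h0 : runWord n w mask idc vals (fuel + 1) word acc =
      Bool.rec
        (force (nthI idc vals (Nat.sub (Nat.land word 7) 1)) fun g =>
         force (comp n w mask g acc) fun acc' =>
         force (Nat.shiftRight word 3) fun word' => runWord n w mask idc vals fuel word' acc')
        acc
        (Nat.beq word 0) := rfl
    rw [h0]
    cases Nat.beq word 0 with
    | true => exact h
    | false =>
      simp only [force_eq]
      apply ih
      obtain ⟨g, hg, hrg⟩ := h
      have h1 : ∃ g' ∈ X, Rep w mask e (nthI idc vals (Nat.sub (Nat.land word 7) 1)) g' := by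
        rcases nthI_mem vals (Nat.sub (Nat.land word 7) 1) (idc := idc) with h2 | h2
        · rw [h2]
          exact ⟨1, one_mem _, rep_one hid⟩
        · exact hv _ h2
      obtain ⟨g', hg', hrg'⟩ := h1
      exact ⟨g' * g, mul_mem hg' hg, hrg'.comp hm hrg⟩

theorem wordsOK_sound (hm : mask = 2 ^ w - 1) (hid : ∀ i < n, app w mask idc i = i) {vals : List Nat}
    (X : Subgroup (Equiv.Perm α)) (hv : ∀ c ∈ vals, ∃ g ∈ X, Rep w mask e c g) :
    ∀ (gens ws : List Nat), wordsOK n w mask idc vals gens ws = true →
      ∀ c ∈ gens, ∃ g ∈ X, Rep w mask e c g := by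
  intro gens
  induction gens with
  | nil => intro ws _ c hc; simp at hc
  | cons c gens ih =>
    intro ws h c' hc'
    cases ws with
    | nil => exact absurd h (by simp [wordsOK])
    | cons u us =>
      have h0 : wordsOK n w mask idc vals (c :: gens) (u :: us) =
        ifB (Nat.beq (runWord n w mask idc vals 64 u idc) c) (wordsOK n w mask idc vals gens us) := rfl
      rw [h0, ifB_eq_true] at h
      obtain ⟨h1, h2⟩ := h
      rcases List.mem_cons.mp hc' with rfl | hc'
      · rw [← Nat.eq_of_beq_eq_true h1]
        exact runWord_sound hm hid X hv _ _ _ ⟨1, one_mem _, rep_one hid⟩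
      · exact ih us h2 c' hc'

theorem rootsOK_spec (hm : mask = 2 ^ w - 1) (hid : ∀ i < n, app w mask idc i = i) {targets : List (List Nat)} {T : List Nat} {U : Nat}
    (X : Subgroup (Equiv.Perm α)) (hTX : ∀ c ∈ T, ∃ g ∈ X, Rep w mask e c g) :
    ∀ (rs : List (Nat × Nat × List Nat)) (m : Nat), rootsOK n w mask L maskL idc targets T U rs m = true →
      ∀ r ∈ rs, (∃ g ∈ X, Rep w mask e (app L maskL U r.1) g) → ∃ t ∈ targets, H w mask e t ≤ X := by
  intro rs
  induction rs with
  | nil => intro m _ r hr; simp at hr
  | cons r rs ih =>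
    intro m h r' hr' hg
    have h0 : rootsOK n w mask L maskL idc targets T U (r :: rs) m =
        (ifB (Nat.ble (Nat.succ r.2.1) (lenN targets)) <|
          force (app L maskL U r.1) fun u =>
          ifB (wordsOK n w mask idc (u :: T) (nthL targets r.2.1) r.2.2) <|
          force (setBit m r.1) (rootsOK n w mask L maskL idc targets T U rs)) := rfl
    rw [h0] at h
    simp only [force_eq, ifB_eq_true] at h
    obtain ⟨h1, h2, h3⟩ := h
    rcases List.mem_cons.mp hr' with rfl | hr2
    · have hlen : r'.2.1 < targets.length := by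
        have := Nat.le_of_ble_eq_true h1
        rw [lenN_eq] at this
        exact this
      refine ⟨nthL targets r'.2.1, nthL_mem _ _ hlen, ?_⟩
      have h4 := wordsOK_sound hm hid X (vals := app L maskL U r'.1 :: T)
        (by
          intro c hc
          rcases List.mem_cons.mp hc with rfl | hc
          · exact hg
          · exact hTX c hc)
        _ _ h2
      apply (Subgroup.closure_le _).2
      rintro g ⟨c, hc, hgc⟩
      obtain ⟨g', hg', hr⟩ := h4 c hc
      rw [hgc.unique hr]
      exact hg'
    · exact ih _ h3 r' hr2 hg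

/-- The main theorem of a step. -/
theorem step (hn : n = 2 ^ w) (hm : mask = 2 ^ w - 1) (hid : ∀ i < n, app w mask idc i = i) (hsem : Sem w mask e L maskL ls)
    {T : List Nat} (hTeq : H w mask e T = H w mask e (topGens ls))
    (hT : ∀ c ∈ T, ∃ g : Equiv.Perm α, Rep w mask e c g) {targets : List (List Nat)} {C : StepCert}
    (hc : stepCheck n w mask L maskL idc ls targets T C = true)
    (X : Subgroup (Equiv.Perm α)) (h1 : H w mask e T ≤ X) (h2 : X ≤ H w mask e (C.tabsA.map (·.1))) :
    X = H w mask e T ∨ ∃ t ∈ targets, H w mask e t ≤ X := by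
  simp only [stepCheck, ifB_eq_true] at hc
  obtain ⟨c1, c2, c3, c4, c5, c6, c7, c8, c9, c10⟩ := hc
  have hN : 0 < C.N := Nat.le_of_ble_eq_true c1
  have h0 : app L maskL C.U 0 = idc := Nat.eq_of_beq_eq_true c2
  have hinv := (allI_eq_true _ _).mp c3
  have hcosA := (allL_eq_true _ _).mp c4
  have hcosL := (allL_eq_true _ _).mp c5
  have hgL := (allL_eq_true _ _).mp c6
  have hroot := (allI_eq_true _ _).mp c7
  have hrt0 : app C.b C.bm C.rt 0 = 0 := Nat.eq_of_beq_eq_true c8
  have hmask : rootsMem C.roots 0 = C.rootMask := Nat.eq_of_beq_eq_true c10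
  by_cases hXL : X = H w mask e T
  · exact Or.inl hXL
  right
  have hlt : ¬ X ≤ H w mask e T := fun h => hXL (le_antisymm h h1)
  obtain ⟨x, hxX, hxL⟩ := SetLike.not_le_iff_exists.mp hlt
  have h3 : H w mask e (topGens ls) ≤ X := hTeq ▸ h1
  obtain ⟨i, hi, g, hg, hmem⟩ := cover hn hm hid hsem C hN h0 hinv hcosA (h2 hxX)
  have hgX : g ∈ X := by
    have h4 : g = x * (g⁻¹ * x)⁻¹ := by group
    rw [h4]
    exact mul_mem hxX (inv_mem (h3 hmem))
  have hi0 : i ≠ 0 := by
    rintro rfl
    rw [h0] at hg
    have h4 : g = 1 := hg.unique (rep_one hid)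
    subst h4
    apply hxL
    rw [hTeq]
    simpa using hmem
  obtain ⟨h5, h6, g', hg', hg'X⟩ := tree_step hn hm hid hsem C hT hinv hcosL hgL hroot hrt0 X h1 h3 i hi hi0 ⟨g, hg, hgX⟩
  have h7 : app C.b C.bm C.rt i ∈ C.roots.map (·.1) := by
    have := (rootsMem_bit C.roots 0 (app C.b C.bm C.rt i)).mp (hmask ▸ h5)
    rcases this with h8 | h8
    · exfalso
      have h9 := bit_eq_testBit 0 (app C.b C.bm C.rt i)
      rw [h9] at h8
      simp at h8
    · exact h8
  obtain ⟨r, hr, hre⟩ := List.mem_map.mp h7
  have hTX : ∀ c ∈ T, ∃ g ∈ X, Rep w mask e c g := by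
    intro c hc
    obtain ⟨g, hg⟩ := hT c hc
    exact ⟨g, h1 (H_of_rep hc hg), hg⟩
  exact rootsOK_spec hm hid X hTX C.roots 0 c9 r hr ⟨g', hg'X, by rw [hre]; exact hg'⟩

end Sound

end Cfsg.Agent.Lib.OverLat.Core
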